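import Cfsg.Agent.S4341
import Cfsg.Agent.S4303
import Cfsg.Agent.Constrained.PSolvable
import Cfsg.Agent.SylowToolkit.Basic
import Mathlib

/-!
# Sylow numbers below `p²`: reduction to simple groups
-/

set_option autoImplicit false
set_option linter.style.haveILetI false
set_option linter.unusedSectionVars false

namespace CfsgLib.SylowBelowSquare

open Cfsg CfsgLib.SylowToolkit Subgroup

universe u

variable {p : ℕ} [hp : Fact p.Prime]

theorem card_sylow_of_isPGroup {G : Type*} [Group G] [Finite G] (h : IsPGroup p G) :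
    Nat.card (Sylow p G) = 1 := by
  haveI : Subsingleton (Sylow p G) := ⟨fun P Q => Sylow.ext <| by
    rw [← P.is_maximal' (h.to_subgroup ⊤) le_top, ← Q.is_maximal' (h.to_subgroup ⊤) le_top]⟩
  exact Nat.card_unique

theorem card_sylow_of_not_dvd {G : Type*} [Group G] [Finite G] (h : ¬ p ∣ Nat.card G) :
    Nat.card (Sylow p G) = 1 := by
  haveI : Subsingleton (Sylow p G) := ⟨fun P Q => Sylow.ext <| by
    have key : ∀ R : Sylow p G, (R : Subgroup G) = ⊥ := fun R => by
      obtain ⟨k, hk⟩ := IsPGroup.iff_card.mp R.isPGroup'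
      rcases k with _ | k
      · exact Subgroup.card_eq_one.mp (by rw [hk, pow_zero])
      · exact absurd ((dvd_pow_self p k.succ_ne_zero).trans (hk ▸ card_subgroup_dvd_card _)) h
    rw [key, key]⟩
  exact Nat.card_unique

theorem card_sylow_mulEquiv {G H : Type*} [Group G] [Finite G] [Group H] [Finite H] (e : G ≃* H) :
    Nat.card (Sylow p G) = Nat.card (Sylow p H) :=
  le_antisymm
    (Nat.card_le_card_of_surjective _
      (Sylow.mapSurjective_surjective (f := e.symm.toMonoidHom) e.symm.surjective p))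
    (Nat.card_le_card_of_surjective _
      (Sylow.mapSurjective_surjective (f := e.toMonoidHom) e.surjective p))

theorem succ_le_card_sylow {G : Type*} [Group G] [Finite G] (h : Nat.card (Sylow p G) ≠ 1) :
    p + 1 ≤ Nat.card (Sylow p G) := by
  have h2 : Nat.card (Sylow p G) % p = 1 := card_sylow_mod
  have h3 := Nat.div_add_mod (Nat.card (Sylow p G)) p
  rw [h2] at h3
  have h4 : Nat.card (Sylow p G) / p ≠ 0 := fun e => by rw [e] at h3; omega
  have : p * 1 ≤ p * (Nat.card (Sylow p G) / p) := Nat.mul_le_mul_left p (Nat.pos_of_ne_zero h4)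
  omega

/-- A prime part congruent to one mod `p` structure below `p²` is a prime power. -/
theorem exists_prime_pow_of_parts {n : ℕ} (hn0 : n ≠ 0) (hlt : n < p ^ 2)
    (h : ∀ r ∈ n.primeFactors, r ^ n.factorization r % p = 1) :
    ∃ q k : ℕ, q.Prime ∧ n = q ^ k := by
  classical
  have hprod : ∏ r ∈ n.primeFactors, r ^ n.factorization r = n :=
    (Nat.prod_factorization_eq_prod_primeFactors (f := fun r k => r ^ k)).symm.trans
      (Nat.prod_factorization_pow_eq_self hn0)
  rcases n.primeFactors.eq_empty_or_nonempty with he | ⟨r, hr⟩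
  · exact ⟨2, 0, Nat.prime_two, by rw [← hprod, he, Finset.prod_empty, pow_zero]⟩
  refine ⟨r, n.factorization r, Nat.prime_of_mem_primeFactors hr, ?_⟩
  by_contra hne
  obtain ⟨s, hs, hsr⟩ : ∃ s ∈ n.primeFactors, s ≠ r := by
    by_contra hc
    push Not at hc
    exact hne (hprod.symm.trans (Finset.prod_eq_single_of_mem r hr fun b hb hbr => absurd (hc b hb) hbr))
  have big : ∀ t ∈ n.primeFactors, p + 1 ≤ t ^ n.factorization t := by
    intro t ht
    have htp := Nat.prime_of_mem_primeFactors ht
    have h1 : 1 < t ^ n.factorization t :=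
      Nat.one_lt_pow (htp.factorization_pos_of_dvd hn0 (Nat.dvd_of_mem_primeFactors ht)).ne' htp.one_lt
    have h2 := Nat.div_add_mod (t ^ n.factorization t) p
    rw [h t ht] at h2
    have h3 : t ^ n.factorization t / p ≠ 0 := fun e => by rw [e] at h2; omega
    have : p * 1 ≤ p * (t ^ n.factorization t / p) := Nat.mul_le_mul_left p (Nat.pos_of_ne_zero h3)
    omega
  have h1 : r ^ n.factorization r * s ^ n.factorization s ≤ n := by
    conv_rhs => rw [← hprod]
    rw [← Finset.prod_pair (f := fun t => t ^ n.factorization t) hsr.symm]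
    exact Finset.prod_le_prod_of_subset_of_one_le' (by
      intro x hx; rcases Finset.mem_insert.1 hx with rfl | hx
      · exact hr
      · exact Finset.mem_singleton.1 hx ▸ hs) fun t ht _ => (by omega : 1 ≤ p + 1).trans (big t ht)
  have h2 := Nat.mul_le_mul (big r hr) (big s hs)
  rw [pow_two] at hlt
  nlinarith

/-- The case of a normal `p'`-subgroup supplementing a Sylow subgroup. -/
theorem prime_pow_of_complement {G : Type*} [Group G] [Finite G] (K : Subgroup G) [K.Normal]
    (P : Sylow p G) (htop : (P : Subgroup G) ⊔ K = ⊤) (hK : ¬ p ∣ Nat.card K)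
    (hlt : Nat.card (Sylow p G) < p ^ 2) : ∃ q k : ℕ, q.Prime ∧ Nat.card (Sylow p G) = q ^ k := by
  have hdisj : (P : Subgroup G) ⊓ K = ⊥ := by
    obtain ⟨k, hk⟩ := IsPGroup.iff_card.mp P.isPGroup'
    exact (disjoint_of_coprime_natCard
      (by rw [hk]; exact (hp.out.coprime_iff_not_dvd.mpr hK).pow_left k)).eq_bot
  have hAK : (P : Subgroup G) ≤ normalizer (K : Set G) := by rw [normalizer_eq_top]; exact le_top
  have hNC : K ⊓ centralizer ((P : Subgroup G) : Set G) =
      K ⊓ normalizer ((P : Subgroup G) : Set G) := by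
    refine le_antisymm (inf_le_inf_left _ (centralizer_le_normalizer _)) (le_inf inf_le_left ?_)
    intro k hk
    obtain ⟨hkK, hkN⟩ := mem_inf.mp hk
    refine mem_centralizer_iff.mpr fun a ha => ?_
    have h1 : a * k * a⁻¹ * k⁻¹ ∈ (P : Subgroup G) ⊓ K := by
      refine mem_inf.mpr ⟨?_, mul_mem ((inferInstance : K.Normal).conj_mem k hkK a) (inv_mem hkK)⟩
      rw [mul_assoc, mul_assoc, ← mul_assoc k]
      exact mul_mem ha ((mem_normalizer_iff.mp hkN _).mp (inv_mem ha))
    rw [hdisj, mem_bot, mul_inv_eq_one, mul_inv_eq_iff_eq_mul] at h1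
    exact h1
  set C := K ⊓ centralizer ((P : Subgroup G) : Set G) with hC
  set n := Nat.card (Sylow p G) with hn
  have heq : n * Nat.card C = Nat.card K := by
    rw [hNC]
    have hN : normalizer ((P : Subgroup G) : Set G) ⊔ K = ⊤ :=
      eq_top_iff.mpr (htop ▸ sup_le_sup_right le_normalizer K)
    have h1 := relIndex_mul_relIndex (⊥ : Subgroup G) (K ⊓ normalizer ((P : Subgroup G) : Set G))
      (normalizer ((P : Subgroup G) : Set G)) bot_le inf_le_right
    rw [relIndex_bot_left, relIndex_bot_left, inf_relIndex_right] at h1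
    have h2 : K.relIndex (normalizer ((P : Subgroup G) : Set G)) = K.index := by
      rw [← relIndex_sup_right, hN, relIndex_top_right]
    have h4 := (normalizer ((P : Subgroup G) : Set G)).index_mul_card
    have h3 : n = (normalizer ((P : Subgroup G) : Set G)).index := P.card_eq_index_normalizer
    rw [← h3, ← h1, h2, ← K.card_mul_index, ← mul_assoc] at h4
    exact Nat.eq_of_mul_eq_mul_right (Nat.pos_of_ne_zero index_ne_zero_of_finite) h4
  have hn0 : n ≠ 0 := by
    intro h0
    rw [h0, zero_mul] at heq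
    exact (Nat.card_pos (α := K)).ne heq
  refine exists_prime_pow_of_parts hn0 hlt fun r hr => ?_
  have hrp := Nat.prime_of_mem_primeFactors hr
  haveI : Fact r.Prime := ⟨hrp⟩
  have h := Cfsg.Agent.S4303.modEq_prime_part P.isPGroup' hAK hK r
  rw [← hC, ← heq, Nat.factorization_mul hn0 Nat.card_pos.ne', Finsupp.add_apply, pow_add] at h
  have hne : r ≠ p := by
    rintro rfl
    exact hK ((Nat.dvd_of_mem_primeFactors hr).trans (heq ▸ dvd_mul_right n _))
  have hc : Nat.Coprime p (r ^ (Nat.card C).factorization r) :=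
    ((Nat.coprime_primes hp.out hrp).mpr hne.symm).pow_right _
  have h1 : r ^ n.factorization r ≡ 1 [MOD p] :=
    Nat.ModEq.cancel_right_of_coprime (c := r ^ _) hc.gcd_eq_one (by rw [one_mul]; exact h)
  exact Eq.trans h1 (Nat.one_mod_eq_one.mpr hp.out.ne_one)

/-- The product formula, packaged. -/
theorem exists_split {G : Type*} [Group G] [Finite G] (K : Subgroup G) [K.Normal] (P : Sylow p G) :
    ∃ c : ℕ, Nat.card (Sylow p G) = Nat.card (Sylow p (G ⧸ K)) * Nat.card (Sylow p K) * c ∧
      (IsPGroup p K → c = 1) ∧ c % p = 1 ∧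
      (¬ p ∣ Nat.card K →
        c = Nat.card (Sylow p (((P : Subgroup G) ⊔ K : Subgroup G)))) := by
  set L := ((P : Subgroup G) ⊔ K) ⊓ normalizer (((P : Subgroup G) ⊓ K : Subgroup G) : Set G) with hL
  haveI hn : (((P : Subgroup G) ⊓ K).subgroupOf L).Normal :=
    (normal_subgroupOf_iff_le_normalizer (le_inf (inf_le_left.trans le_sup_left) le_normalizer)).mpr
      inf_le_right
  refine ⟨_, Cfsg.Agent.S4341.result p K P L hL, fun hKp => ?_, card_sylow_mod, fun hK => ?_⟩
  · have hKP : K ≤ (P : Subgroup G) := by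
      obtain ⟨Q, hQ⟩ := hKp.exists_le_sylow
      obtain ⟨g, rfl⟩ := MulAction.exists_smul_eq G Q P
      intro x hx
      rw [Sylow.coe_subgroup_smul, mem_pointwise_smul_iff_inv_smul_mem]
      have : g⁻¹ * x * g ∈ K := by simpa using (inferInstance : K.Normal).conj_mem x hx g⁻¹
      simpa [MulAut.smul_def] using hQ this
    refine card_sylow_of_isPGroup (IsPGroup.to_quotient (P.isPGroup'.to_le ?_) _)
    exact inf_le_left.trans (sup_le le_rfl hKP)
  · have hdisj : (P : Subgroup G) ⊓ K = ⊥ := by
      obtain ⟨k, hk⟩ := IsPGroup.iff_card.mp P.isPGroup'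
      exact (disjoint_of_coprime_natCard
        (by rw [hk]; exact (hp.out.coprime_iff_not_dvd.mpr hK).pow_left k)).eq_bot
    have hLeq : L = (P : Subgroup G) ⊔ K := by
      rw [hL, inf_eq_left, hdisj, normalizer_eq_top]
      exact le_top
    have hb : ((P : Subgroup G) ⊓ K).subgroupOf L = ⊥ := by rw [hdisj, bot_subgroupOf]
    exact card_sylow_mulEquiv
      (((QuotientGroup.quotientMulEquivOfEq hb).trans QuotientGroup.quotientBot).trans
        (MulEquiv.subgroupCongr hLeq))

/-- A `p`-solvable group with fewer than `p²` Sylow subgroups. -/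
theorem prime_pow_of_isPSolvable (N : ℕ) : ∀ (G : Type u) [Group G] [Finite G], Nat.card G = N →
    IsPSolvable p G → Nat.card (Sylow p G) < p ^ 2 →
    ∃ q k : ℕ, q.Prime ∧ Nat.card (Sylow p G) = q ^ k := by
  induction N using Nat.strong_induction_on with
  | _ N ih =>
    intro G _ _ hN hps hlt
    rcases subsingleton_or_nontrivial G with hG | hG
    · exact ⟨2, 0, Nat.prime_two, by
        rw [pow_zero]; exact card_sylow_of_isPGroup (IsPGroup.of_card (n := 0) (by simp))⟩
    obtain ⟨K, hKn, hKb, hKc⟩ : ∃ K : Subgroup G, K.Normal ∧ K ≠ ⊥ ∧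
        (IsPGroup p K ∨ ¬ p ∣ Nat.card K) := by
      rcases Constrained.IsPSolvable.core_ne_bot hps with h | h
      · exact ⟨pCore p G, inferInstance, h, Or.inl Constrained.isPGroup_pCore⟩
      · exact ⟨pPrimeCore p G, inferInstance, h, Or.inr Constrained.pPrimeCore_not_dvd⟩
    have hQlt : Nat.card (G ⧸ K) < N := by
      rw [← hN, K.card_eq_card_quotient_mul_card_subgroup]
      exact lt_mul_of_one_lt_right Nat.card_pos ((one_lt_card_iff_ne_bot _).mpr hKb)
    obtain ⟨P⟩ := (inferInstance : Nonempty (Sylow p G))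
    obtain ⟨c, hsplit, hcP, hc1, hcK⟩ := exists_split K P
    have hK1 : Nat.card (Sylow p K) = 1 :=
      hKc.elim card_sylow_of_isPGroup card_sylow_of_not_dvd
    rw [hK1, mul_one] at hsplit
    by_cases hQ : Nat.card (Sylow p (G ⧸ K)) = 1
    · rw [hQ, one_mul] at hsplit
      rcases hKc with hKp | hK
      · exact ⟨2, 0, Nat.prime_two, by rw [hsplit, hcP hKp, pow_zero]⟩
      rw [hsplit, hcK hK] at hlt ⊢
      haveI : (K.subgroupOf ((P : Subgroup G) ⊔ K)).Normal := inferInstance
      refine prime_pow_of_complement (K.subgroupOf ((P : Subgroup G) ⊔ K))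
        (P.subtype le_sup_left) ?_ ?_ hlt
      · rw [Sylow.coe_subtype, ← subgroupOf_sup le_sup_left le_sup_right, subgroupOf_self]
      · rwa [Nat.card_congr (subgroupOfEquivOfLe le_sup_right).toEquiv]
    · have hbig := succ_le_card_sylow hQ
      have hc : c = 1 := by
        by_contra hne
        have h3 := Nat.div_add_mod c p
        rw [hc1] at h3
        have h4 : c / p ≠ 0 := fun e => by rw [e] at h3; omega
        have h5 : p * 1 ≤ p * (c / p) := Nat.mul_le_mul_left p (Nat.pos_of_ne_zero h4)
        have h6 := Nat.mul_le_mul hbig (show p + 1 ≤ c by omega)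
        rw [← hsplit] at h6
        rw [pow_two] at hlt
        nlinarith
      rw [hc, mul_one] at hsplit
      rw [hsplit]
      exact ih _ hQlt _ rfl (Constrained.IsPSolvable.quotient hps K) (hsplit ▸ hlt)

/-- A group that is not `p`-solvable has a simple section whose Sylow number divides its own. -/
theorem exists_simple_dvd (N : ℕ) : ∀ (G : Type u) [Group G] [Finite G], Nat.card G = N →
    ¬ IsPSolvable p G → ∃ (S : Type u) (_ : Group S) (_ : Finite S), IsSimpleGroup S ∧
      ¬ IsMulCommutative S ∧ p ∣ Nat.card S ∧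
      Nat.card (Sylow p S) ∣ Nat.card (Sylow p G) := by
  induction N using Nat.strong_induction_on with
  | _ N ih =>
    intro G _ _ hN hps
    by_cases hs : IsSimpleGroup G
    · refine ⟨G, inferInstance, inferInstance, hs, fun h => hps ?_, ?_, dvd_rfl⟩
      · letI : CommGroup G := { (inferInstance : Group G) with mul_comm := h.is_comm.comm }
        exact Constrained.isPSolvable_of_isSolvable
      · by_contra hd
        exact hps (Constrained.isPSolvable_of_not_dvd hd)
    rcases subsingleton_or_nontrivial G with hG | hG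
    · exact absurd Constrained.isPSolvable_of_subsingleton hps
    obtain ⟨K, hKn, hKb, hKt⟩ : ∃ K : Subgroup G, K.Normal ∧ K ≠ ⊥ ∧ K ≠ ⊤ := by
      by_contra hc
      push Not at hc
      exact hs ⟨fun H hH => (em (H = ⊥)).imp id (hc H hH)⟩
    obtain ⟨P⟩ := (inferInstance : Nonempty (Sylow p G))
    obtain ⟨c, hsplit, -⟩ := exists_split K P
    by_cases hKs : IsPSolvable p K
    · have hQs : ¬ IsPSolvable p (G ⧸ K) :=
        fun h => hps (Constrained.isPSolvable_of_extension K hKs h)
      have hlt : Nat.card (G ⧸ K) < N := by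
        rw [← hN, K.card_eq_card_quotient_mul_card_subgroup]
        exact lt_mul_of_one_lt_right Nat.card_pos ((one_lt_card_iff_ne_bot _).mpr hKb)
      obtain ⟨S, i1, i2, h1, h2, h3, h4⟩ := ih _ hlt _ rfl hQs
      exact ⟨S, i1, i2, h1, h2, h3, h4.trans (hsplit ▸ (dvd_mul_right _ _).mul_right c)⟩
    · have hlt : Nat.card K < N := hN ▸ lt_of_le_of_ne (card_le_card_group K)
        fun h => hKt (eq_top_of_card_eq K h)
      obtain ⟨S, i1, i2, h1, h2, h3, h4⟩ := ih _ hlt _ rfl hKs
      exact ⟨S, i1, i2, h1, h2, h3, h4.trans (hsplit ▸ (dvd_mul_left _ _).mul_right c)⟩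

end CfsgLib.SylowBelowSquare
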