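import Cfsg.Agent.SylowBelowSquare.Arith
import Cfsg.Agent.Blocks.OrderP.Perfect.Main
import Cfsg.Agent.SylowToolkit.Basic
import Cfsg.Agent.S4343
import Mathlib

/-!
# Simple groups with fewer than `p²` Sylow `p`-subgroups
-/

set_option autoImplicit false
set_option linter.style.haveILetI false

namespace CfsgLib.SylowBelowSquare

open Cfsg CfsgLib.SylowToolkit
open scoped commutatorElement

variable {S : Type*} [Group S] [Finite S] [IsSimpleGroup S] {p : ℕ} [hp : Fact p.Prime]

omit [Finite S] in
theorem commutator_eq_top (hS : ¬ IsMulCommutative S) : commutator S = ⊤ := by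
  rcases IsSimpleGroup.eq_bot_or_eq_top_of_normal (commutator S) inferInstance with h | h
  · refine absurd ⟨⟨fun a b => ?_⟩⟩ hS
    have h1 : ⁅a, b⁆ ∈ commutator S := Subgroup.commutator_mem_commutator (Subgroup.mem_top a) (Subgroup.mem_top b)
    rw [h, Subgroup.mem_bot] at h1
    exact commutatorElement_eq_one_iff_mul_comm.1 h1
  · exact h

/-- Brauer's theorem for a simple group with fewer than `p²` Sylow `p`-subgroups. -/
theorem simple_trichotomy (hS : ¬ IsMulCommutative S) (hd : p ∣ Nat.card S)
    (hlt : Nat.card (Sylow p S) < p ^ 2) :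
    ∃ m r : ℕ, 0 < m ∧ m < p ∧ Nat.card (Sylow p S) = 1 + m * p ∧
      Nat.card S = (1 + m * p) * (p * r) ∧
      (Blocks.OrderP.Perfect.Recognised p S ∨ Blocks.OrderP.Perfect.CountForm m p) := by
  classical
  haveI := Fintype.ofFinite S
  obtain ⟨P⟩ := (inferInstance : Nonempty (Sylow p S))
  have hP : Nat.card P = p := Cfsg.Agent.S4343.result hS p hd hlt P
  have hmod : Nat.card (Sylow p S) % p = 1 := card_sylow_mod
  have hdiv := Nat.div_add_mod (Nat.card (Sylow p S)) p
  set m := Nat.card (Sylow p S) / p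
  rw [hmod] at hdiv
  have hn : Nat.card (Sylow p S) = 1 + m * p := by rw [← hdiv]; ring
  have hm0 : 0 < m := by
    by_contra h0
    have := one_lt_card_sylow (p := p) hS hd
    rw [Nat.eq_zero_of_not_pos h0] at hn
    omega
  have hmp : m < p := by
    by_contra h0
    push Not at h0
    have : p * p ≤ m * p := Nat.mul_le_mul_right p h0
    rw [pow_two] at hlt
    omega
  obtain ⟨r, hr⟩ : p ∣ Nat.card (Subgroup.normalizer ((P : Subgroup S) : Set S)) :=
    (dvd_of_eq hP.symm).trans (Subgroup.card_dvd_of_le Subgroup.le_normalizer)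
  refine ⟨m, r, hm0, hmp, hn, ?_, ?_⟩
  · rw [← hn, Sylow.card_eq_index_normalizer P, ← hr]
    exact (Subgroup.index_mul_card _).symm
  rcases Blocks.OrderP.Perfect.recognised_quotient (commutator_eq_top hS) P hP hn with h | h
  · haveI : (pPrimeCore p S).Normal := Constrained.instNormalPPrimeCore p
    have hbot : pPrimeCore p S = ⊥ := by
      rcases IsSimpleGroup.eq_bot_or_eq_top_of_normal (pPrimeCore p S) inferInstance with h' | h'
      · exact h'
      · exact absurd hd (by
          have := Constrained.pPrimeCore_not_dvd (p := p) (G := S)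
          rwa [h', Subgroup.card_top] at this)
    exact Or.inl (h.of_mulEquiv
      ((QuotientGroup.quotientMulEquivOfEq hbot).trans QuotientGroup.quotientBot).symm)
  · exact Or.inr h

/-- A prime power number of Sylow subgroups below `p²` forces `p + 1` to be a power of two. -/
theorem succ_eq_two_pow (hS : ¬ IsMulCommutative S) (hd : p ∣ Nat.card S)
    (hlt : Nat.card (Sylow p S) < p ^ 2) {q k : ℕ} (hq : q.Prime)
    (hn : Nat.card (Sylow p S) = q ^ k) : 3 < p ∧ ∃ j : ℕ, p + 1 = 2 ^ j := by
  obtain ⟨m, r, hm0, hmp, hnm, hcard, h⟩ := simple_trichotomy hS hd hlt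
  rw [hnm] at hn
  have hp2 := hp.out.two_le
  rcases h with ⟨h3, h⟩ | ⟨h, u, hh, hu, e⟩
  · refine ⟨h3, ?_⟩
    rcases h with ⟨hc, -⟩ | ⟨j, hj, hc, -⟩
    · rw [hcard] at hc
      have hc' : 2 * ((1 + m * p) * r) = (p - 1) * (p + 1) :=
        Nat.eq_of_mul_eq_mul_left hp.out.pos (by linear_combination hc)
      have hdvd : p ∣ 2 * r + 1 := by
        obtain ⟨w, hw⟩ : ∃ w, p = w + 1 := ⟨p - 1, by omega⟩
        rw [show p - 1 = w by omega] at hc'
        have h1 : 2 * r + 1 + 2 * m * r * p = p * p := by subst hw; linear_combination hc'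
        exact (Nat.dvd_add_left ⟨2 * m * r, by ring⟩).1 (h1 ▸ dvd_mul_right p p)
      have hr := Nat.le_of_dvd (by omega) hdvd
      have hm1 : m = 1 := by
        by_contra hne
        have h1 : (1 + 2 * p) * (2 * r) ≤ (1 + m * p) * (2 * r) :=
          Nat.mul_le_mul_right _ (by have : 2 * p ≤ m * p := Nat.mul_le_mul_right p (by omega); omega)
        have h2 : (1 + 2 * p) * (p - 1) ≤ (1 + 2 * p) * (2 * r) := Nat.mul_le_mul_left _ (by omega)
        have h4 : (p + 1) * (p - 1) < (1 + 2 * p) * (p - 1) :=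
          Nat.mul_lt_mul_of_pos_right (by omega) (by omega)
        rw [mul_comm (p + 1)] at h4
        linarith
      subst hm1
      rw [one_mul, add_comm] at hn
      obtain ⟨a, ha⟩ := hp.out.odd_of_ne_two (by omega)
      have h2q : 2 ∣ q ^ k := ⟨a + 1, by omega⟩
      obtain rfl := (Nat.prime_dvd_prime_iff_eq Nat.prime_two hq).1 (Nat.prime_two.dvd_of_dvd_pow h2q)
      exact ⟨k, hn⟩
    · exfalso
      rw [hcard] at hc
      obtain ⟨T, hT⟩ : ∃ T, 2 ^ j = T := ⟨_, rfl⟩
      rw [hT] at hj
      rw [show p - 1 = T by omega, show p - 2 = T - 1 by omega] at hc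
      have hc' : (1 + m * p) * r = T * (T - 1) :=
        Nat.eq_of_mul_eq_mul_left hp.out.pos (by linear_combination hc)
      have hcop : T.Coprime (T - 1) := (Nat.coprime_self_sub_right (by omega)).2 (Nat.coprime_one_right T)
      have hdd : q ^ k ∣ T * (T - 1) := ⟨r, by rw [← hn, hc']⟩
      rcases (Nat.Coprime.isPrimePow_dvd_mul hcop (hq.isPrimePow.pow (k := k) (by
        rintro rfl; rw [pow_zero] at hn; nlinarith))).1 hdd with hd1 | hd1
      · have := Nat.le_of_dvd (by omega) hd1
        have := Nat.le_mul_of_pos_left p hm0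
        omega
      · have := Nat.le_of_dvd (by omega) hd1
        have := Nat.le_mul_of_pos_left p hm0
        omega
  · exact absurd hn (not_prime_pow hp2 hq hh hu hmp e)

end CfsgLib.SylowBelowSquare
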