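import Mathlib

/-!
# Arithmetic of Brauer's exceptional Sylow number

If `m (u + 1) = h u p + u² + u + h` with `m < p`, then `h = 1` and
`(u + 1) (1 + m p) = (u p + 1) (p + u + 1)`.
-/

set_option autoImplicit false

namespace CfsgLib.SylowBelowSquare

variable {p m h u : ℕ}

theorem h_eq_one (hh : 0 < h) (hu : 0 < u) (hm : m < p)
    (e : m * (u + 1) = h * u * p + u ^ 2 + u + h) : h = 1 := by
  by_contra hne
  have h2 : 2 ≤ h := by omega
  have h3 : (u + 1) * p ≤ h * u * p := Nat.mul_le_mul_right p (by nlinarith)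
  have h4 : m * (u + 1) < p * (u + 1) := Nat.mul_lt_mul_of_pos_right hm (by omega)
  rw [Nat.mul_comm p] at h4
  omega

/-- The exceptional number has `u² + u + 1 < p`. -/
theorem sq_lt (hm : m < p) (e : m * (u + 1) = u * p + u ^ 2 + u + 1) : u ^ 2 + u + 1 < p := by
  have h4 : m * (u + 1) < p * (u + 1) := Nat.mul_lt_mul_of_pos_right hm (by omega)
  nlinarith

/-- `1 + m p` factors. -/
theorem factor (e : m * (u + 1) = u * p + u ^ 2 + u + 1) :
    ∃ a : ℕ, a * (u + 1) = u * p + 1 ∧ 1 + m * p = a * (p + u + 1) := by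
  have hmu : u ≤ m := by
    by_contra hlt
    have : m * (u + 1) < u * (u + 1) := Nat.mul_lt_mul_of_pos_right (by omega) (by omega)
    nlinarith
  obtain ⟨a, rfl⟩ := Nat.exists_eq_add_of_le hmu
  have ha : a * (u + 1) = u * p + 1 := by nlinarith
  exact ⟨a, ha, by nlinarith⟩

/-- Brauer's exceptional number is not a prime power below `p²`. -/
theorem not_prime_pow {q k : ℕ} (hp : 2 ≤ p) (hq : q.Prime) (hh : 0 < h) (hu : 0 < u) (hm : m < p)
    (e : m * (u + 1) = h * u * p + u ^ 2 + u + h) : 1 + m * p ≠ q ^ k := by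
  intro hn
  obtain rfl := h_eq_one hh hu hm e
  rw [one_mul] at e
  have hlt := sq_lt hm e
  obtain ⟨a, ha, hfac⟩ := factor e
  rw [hfac] at hn
  obtain ⟨i, -, hi⟩ := (Nat.dvd_prime_pow hq).1 (hn ▸ dvd_mul_right a (p + u + 1))
  obtain ⟨j, -, hj⟩ := (Nat.dvd_prime_pow hq).1 (hn ▸ dvd_mul_left (p + u + 1) a)
  have hap : a < p := by
    by_contra hge
    push Not at hge
    have : p * (u + 1) ≤ a * (u + 1) := Nat.mul_le_mul_right _ hge
    nlinarith
  have hij : i < j := by
    by_contra hge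
    push Not at hge
    have := Nat.pow_le_pow_right hq.pos hge
    omega
  obtain ⟨r, hr⟩ : a ∣ p + u + 1 := by rw [hi, hj]; exact pow_dvd_pow q hij.le
  have hr2 : 2 ≤ r := by
    rcases r with _ | _ | r
    · simp at hr
    · rw [zero_add, mul_one] at hr; omega
    · omega
  rcases Nat.lt_or_ge u 2 with h1 | h1
  · obtain rfl : u = 1 := by omega
    rcases Nat.lt_or_ge r 3 with h2 | h2
    · obtain rfl : r = 2 := by omega
      omega
    · have : a * 3 ≤ a * r := Nat.mul_le_mul_left a h2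
      omega
  · have h3 : a * 2 ≤ p + u + 1 := hr ▸ Nat.mul_le_mul_left a hr2
    have h4 : (a * 2) * (u + 1) ≤ (p + u + 1) * (u + 1) := Nat.mul_le_mul_right _ h3
    nlinarith

end CfsgLib.SylowBelowSquare
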